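import Cfsg.Agent.H371.PslThree
import Cfsg.Agent.H377.SpElt
import Cfsg.Agent.H377.OddThree
import Cfsg.Agent.H182.CentOrth
import Cfsg.Agent.H948.UMain
import Cfsg.Agent.H363.PSL2Spec
import Cfsg.Agent.H534.FiveNum

/-!
# Simple groups in which 5 is an isolated vertex of the prime graph: classical groups (helper534, for S4368)
-/

set_option autoImplicit false

namespace Cfsg.Agent.H534.Five

open Subgroup Cfsg Cfsg.Agent.H94.PG

/-- 5 is isolated in the prime graph -/
def Iso5 (G : Type*) [Group G] : Prop :=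
  ∀ x y : G, orderOf x = 5 → Commute x y → (orderOf y).Prime → orderOf y = 5

section

variable {G : Type*} [Group G]

theorem iso5_of_hyp (h : ∀ x : G, x ≠ 1 → (∃ k : ℕ, orderOf x = 5 ^ k) →
    IsPGroup 5 (Subgroup.centralizer ({x} : Set G))) : Iso5 G := by
  intro x y hx hc hy
  have hx1 : x ≠ 1 := by
    rintro rfl
    rw [orderOf_one] at hx
    omega
  have h1 := h x hx1 ⟨1, by rw [hx, pow_one]⟩
  obtain ⟨k, hk⟩ := h1 ⟨y, mem_centralizer_singleton_iff.2 hc.eq.symm⟩
  have h2 : y ^ 5 ^ k = 1 := congrArg Subtype.val hk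
  have h3 : orderOf y ∣ 5 ^ k := orderOf_dvd_of_pow_eq_one h2
  exact (Nat.prime_dvd_prime_iff_eq hy Nat.prime_five).1 (hy.dvd_of_dvd_pow h3)

theorem Iso5.congr {H : Type*} [Group H] (h : Iso5 G) (e : G ≃* H) : Iso5 H := by
  intro x y hx hc hy
  have h1 := h (e.symm x) (e.symm y) (by rw [MulEquiv.orderOf_eq, hx]) (hc.map e.symm.toMonoidHom)
    (by rw [MulEquiv.orderOf_eq]; exact hy)
  rwa [MulEquiv.orderOf_eq] at h1

theorem Iso5.not_adj (h : Iso5 G) (s : ℕ) : ¬ Adj G 5 s := by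
  rintro ⟨-, hs, hne, x, y, hx, hy, hc⟩
  have := h x y hx hc (by rw [hy]; exact hs)
  exact hne (by rw [← this, hy])

theorem Iso5.not_adj' (h : Iso5 G) (s : ℕ) : ¬ Adj G s 5 := fun h1 => h.not_adj s h1.symm

/-- an element whose order is divisible by 5 is a 5-element -/
theorem Iso5.orderOf_eq [Finite G] (h : Iso5 G) {g : G} (hg : 5 ∣ orderOf g) : ∃ k, 1 ≤ k ∧ orderOf g = 5 ^ k := by
  have h1 : orderOf g = 5 ^ (orderOf g).primeFactorsList.length := by
    refine Nat.eq_prime_pow_of_unique_prime_dvd (orderOf_pos g).ne' fun {v} hv hd => ?_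
    by_contra hne
    exact h.not_adj v (adj_of_dvd Nat.prime_five hv (Ne.symm hne) (Commute.refl g) hg hd (orderOf_pos g).ne'
      (orderOf_pos g).ne')
  refine ⟨_, ?_, h1⟩
  by_contra hlt
  have h2 : (orderOf g).primeFactorsList.length = 0 := by omega
  rw [h2, pow_zero] at h1
  omega

theorem Iso5.not_orderOf [Finite G] (h : Iso5 G) {s : ℕ} (hs : s.Prime) (hs5 : s ≠ 5) (g : G) : orderOf g ≠ 5 * s := by
  intro hg
  obtain ⟨k, -, hk⟩ := h.orderOf_eq (g := g) (by rw [hg]; exact dvd_mul_right _ _)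
  have h1 : s ∣ 5 ^ k := by rw [← hk, hg]; exact dvd_mul_left _ _
  exact hs5 ((Nat.prime_dvd_prime_iff_eq hs Nat.prime_five).1 (hs.dvd_of_dvd_pow h1))

theorem Iso5.not_orderOf' [Finite G] (h : Iso5 G) {s : ℕ} (hs : s.Prime) (hs5 : s ≠ 5) (g : G) :
    orderOf g ≠ s * 5 := by rw [mul_comm]; exact h.not_orderOf hs hs5 g

/-- the reflexive transitive closure of any relation given by elements of order `a b` -/
theorem Iso5.eq_of_conn [Finite G] (h : Iso5 G) {R : ℕ → ℕ → Prop}
    (hR : ∀ a b, R a b → b.Prime ∧ a ≠ b ∧ ∃ g : G, orderOf g = a * b) {s : ℕ}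
    (hc : Relation.ReflTransGen R 5 s) : s = 5 := by
  induction hc with
  | refl => rfl
  | tail _ h2 ih =>
    subst ih
    obtain ⟨hb, hne, g, hg⟩ := hR _ _ h2
    exact absurd hg (h.not_orderOf hb hne.symm g)

theorem Iso5.not_pconn [Finite G] (h : Iso5 G) {s : ℕ} (hs : s ≠ 5) : ¬ H371.PConn G 5 s := fun hc =>
  hs (h.eq_of_conn (fun _ _ h => ⟨h.2.1, h.2.2.1, h.2.2.2⟩) hc)

end

/-! ### fifth residues -/

theorem dvd_four {q : ℕ} (hq : ¬ 5 ∣ q) : 5 ∣ q ^ 4 - 1 := by
  have h1 : q ^ 4 % 5 = 1 := by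
    have h2 : q % 5 = 1 ∨ q % 5 = 2 ∨ q % 5 = 3 ∨ q % 5 = 4 := by omega
    rcases h2 with h | h | h | h <;> rw [Nat.pow_mod, h]
  omega

theorem dvd_cases {q : ℕ} (hq : ¬ 5 ∣ q) : q % 5 = 1 ∨ q % 5 = 4 ∨ (q % 5 = 2 ∨ q % 5 = 3) := by omega

section PSL

variable {F : Type*} [Field F] [Finite F] {n : ℕ}

theorem card_ne_of (h : ∀ c : F, c ≠ 0 → c ^ n = 1) : Nat.card F - 1 ∣ n := H371.Psl.sub_one_dvd_of_forall h

/-- `PSL_n(q)`, `n ≥ 3` -/
theorem psl (hn : 3 ≤ n) (h5 : 5 ∣ Nat.card (Matrix.ProjectiveSpecialLinearGroup (Fin n) F))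
    (h : Iso5 (Matrix.ProjectiveSpecialLinearGroup (Fin n) F)) : n = 3 ∧ Nat.card F = 4 := by
  have hq : 1 < Nat.card F := Finite.one_lt_card
  have hfin : Finite (Matrix.ProjectiveSpecialLinearGroup (Fin n) F) := inferInstance
  have hbad : ∀ s, s ≠ 5 → ¬ H371.PConn (Matrix.ProjectiveSpecialLinearGroup (Fin n) F) 5 s := fun s hs =>
    h.not_pconn hs
  have hadj : ∀ s, s ≠ 5 → ¬ H371.PAdj (Matrix.ProjectiveSpecialLinearGroup (Fin n) F) 5 s := fun s hs h1 =>
    hbad s hs h1.conn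
  have hadj' : ∀ s, s ≠ 5 → ¬ H371.PAdj (Matrix.ProjectiveSpecialLinearGroup (Fin n) F) s 5 := fun s hs h1 =>
    hbad s hs h1.symm.conn
  have key : ∀ k, 1 ≤ k → k + 2 ≤ n → 5 ∣ Nat.card F ^ k - 1 → 5 ∣ Nat.card F - 1 := by
    intro k hk hkn h1
    by_contra h2
    exact hadj' 2 (by norm_num) (H371.Psl.adj_two_of_le Nat.prime_five (by norm_num) hk hkn h1 h2)
  rcases H371.Psl.cases_odd hn Nat.prime_five (by norm_num) h5 with h1 | h1 | ⟨h1, h2⟩ | ⟨h1, h2⟩
  · exact absurd h1 (hbad 2 (by norm_num))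
  · obtain ⟨rfl, h2 | h2⟩ := h1
    · exfalso
      rcases H371.Psl.dvd_card (by norm_num) Nat.prime_five h5 with h3 | ⟨k, hk, hk3, h3⟩
      · rw [h2] at h3; omega
      · rw [h2] at h3
        interval_cases k <;> omega
    · exact ⟨rfl, h2⟩
  · -- `5 ∣ q^(n-1) - 1`
    have h5q : ¬ 5 ∣ Nat.card F := by
      intro h3
      have h4 : 5 ∣ Nat.card F ^ (n - 1) := dvd_pow h3 (by omega)
      have h6 : 1 ≤ Nat.card F ^ (n - 1) := Nat.one_le_pow _ _ (by omega)
      omega
    obtain ⟨m, rfl⟩ : ∃ m, n = m + 1 := ⟨n - 1, by omega⟩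
    rw [Nat.add_sub_cancel] at h2
    by_cases hd : (Nat.card F - 1) ∣ m + 1
    · have h4 := dvd_four h5q
      have hm6 : m + 1 < 6 := by
        by_contra hlt
        exact h1 (key 4 (by norm_num) (by omega) h4)
      have hle : Nat.card F - 1 ≤ m + 1 := Nat.le_of_dvd (by omega) hd
      have hq6 : Nat.card F ≤ 6 := by omega
      have hq4 : Nat.card F = 2 ∨ Nat.card F = 3 ∨ Nat.card F = 4 ∨ Nat.card F = 5 := by
        have h7 : Nat.card F ≠ 6 := by
          intro h8
          rw [h8] at h1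
          exact h1 (by norm_num)
        omega
      have hm : m = 2 ∨ m = 3 ∨ m = 4 := by omega
      rcases hq4 with hq4 | hq4 | hq4 | hq4 <;> rcases hm with rfl | rfl | rfl <;> rw [hq4] at h2 hd <;>
        first
        | (exfalso; revert h2; norm_num; done)
        | (exfalso; revert hd; norm_num; done)
        | skip
      · -- `q = 2`, `n = 5`
        exfalso
        refine hadj 3 (by norm_num) (H371.Psl.adj_sub (F := F) (n := 4) (by norm_num) Nat.prime_five Nat.prime_three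
          (by norm_num) ?_ ?_ ?_ ?_) <;> rw [hq4] <;> norm_num
      · exact ⟨rfl, hq4⟩
    · exfalso
      have h3 : ∃ c : F, c ≠ 0 ∧ c ^ (m + 1) ≠ 1 := by
        by_contra h4
        push Not at h4
        exact hd (card_ne_of h4)
      obtain ⟨c, hc0, hc⟩ := h3
      exact hbad 2 (by norm_num) (H371.Psl.conn_of_scalar (by omega) Nat.prime_five h2 h1 hc0 hc)
  · -- `5 ∣ q^n - 1`
    exfalso
    have h5q : ¬ 5 ∣ Nat.card F := by
      intro h3
      have h4 : 5 ∣ Nat.card F ^ n := dvd_pow h3 (by omega)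
      have h6 : 1 ≤ Nat.card F ^ n := Nat.one_le_pow _ _ (by omega)
      omega
    have h4 := dvd_four h5q
    have hn6 : n < 6 := by
      by_contra hlt
      exact h1 (key 4 (by norm_num) (by omega) h4)
    have hres := dvd_cases h5q
    have hne1 : Nat.card F % 5 ≠ 1 := by omega
    have hnn : n = 3 ∨ n = 4 ∨ n = 5 := by omega
    have hone : 1 ≤ Nat.card F ^ n := Nat.one_le_pow _ _ (by omega)
    rcases hnn with rfl | rfl | rfl
    · have h6 : Nat.card F ^ 3 % 5 = 1 := by omega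
      rw [Nat.pow_mod] at h6
      rcases hres with h7 | h7 | h7 | h7 <;> rw [h7] at h6 <;> omega
    · have h6 : Nat.card F % 5 ≠ 4 := by
        intro h7
        apply h1
        apply key 2 (by norm_num) (by norm_num)
        have h8 : Nat.card F ^ 2 % 5 = 1 := by rw [Nat.pow_mod, h7]
        omega
      by_cases hodd : ∃ b, b.Prime ∧ b ≠ 2 ∧ b ∣ Nat.card F + 1
      · obtain ⟨b, hb, hb2, hbd⟩ := hodd
        have hb5 : b ≠ 5 := by rintro rfl; omega
        have hb1 : ¬ b ∣ Nat.card F - 1 := by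
          intro h7
          have h8 : b ∣ Nat.card F + 1 - (Nat.card F - 1) := Nat.dvd_sub hbd h7
          have h9 : Nat.card F + 1 - (Nat.card F - 1) = 2 := by omega
          rw [h9] at h8
          exact hb2 ((Nat.prime_dvd_prime_iff_eq hb Nat.prime_two).1 h8)
        have hb4 : b ∣ Nat.card F ^ 4 - 1 := by
          have h7 : Nat.card F ^ 4 - 1 = (Nat.card F + 1) * ((Nat.card F - 1) * (Nat.card F ^ 2 + 1)) := by
            obtain ⟨r, hr⟩ : ∃ r, Nat.card F = r + 1 := ⟨Nat.card F - 1, by omega⟩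
            rw [hr, Nat.add_sub_cancel]
            have : (r + 1) ^ 4 = (r + 1 + 1) * (r * ((r + 1) ^ 2 + 1)) + 1 := by ring
            omega
          rw [h7]
          exact hbd.mul_right _
        exact hadj b hb5 (H371.Psl.adj_top (F := F) (n := 4) (by norm_num) Nat.prime_five hb hb5.symm h2 hb4 h1 hb1)
      · push Not at hodd
        have h7 : ∃ e, Nat.card F + 1 = 2 ^ e := by
          refine ⟨_, Nat.eq_prime_pow_of_unique_prime_dvd (by omega) fun {v} hv hd => ?_⟩
          by_contra hv2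
          exact hodd v hv hv2 hd
        obtain ⟨e, he⟩ := h7
        have he2 : 2 ≤ e := by
          by_contra hlt
          have : e = 0 ∨ e = 1 := by omega
          rcases this with rfl | rfl <;> omega
        exact hadj' 2 (by norm_num) (H371.Psl.adj_two_of_mersenne (F := F) (n := 4) (by norm_num) (by norm_num) he2 he
          Nat.prime_five (by norm_num) h2 h1)
    · have h6 : Nat.card F ^ 5 % 5 = 1 := by omega
      rw [Nat.pow_mod] at h6
      rcases hres with h7 | h7 | h7 | h7 <;> rw [h7] at h6 <;> omega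

end PSL

section PSp

variable {F : Type*} [Field F] [Finite F] {m : ℕ}

theorem isPrimePow_card : IsPrimePow (Nat.card F) := by
  let _ := Fintype.ofFinite F
  rw [Nat.card_eq_fintype_card]
  exact FiniteField.isPrimePow_card F

theorem psp (hm : 2 ≤ m) (h5 : 5 ∣ Nat.card (PSp m F)) (h : Iso5 (PSp m F)) :
    m = 2 ∧ (Nat.card F = 2 ∨ Nat.card F = 3 ∨ Nat.card F = 7) := by
  have hq : 1 < Nat.card F := Finite.one_lt_card
  obtain ⟨h1, h2⟩ := H377.psp_info hm Nat.prime_five (by norm_num) h5 (h.not_adj 2)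
  have h5q : ¬ 5 ∣ Nat.card F := fun h3 => h.not_adj 2 (H377.psp_adj_two_of_char hm Nat.prime_five (by norm_num) h3)
  have hm2 : m = 2 := by
    by_contra hne
    exact h2 2 (by norm_num) (by omega) (dvd_four h5q)
  subst hm2
  refine ⟨rfl, ?_⟩
  have h3 := h2 1 le_rfl (by norm_num)
  have h4 : 5 ∣ Nat.card F ^ 2 + 1 := by
    rcases h1 with h1 | h1
    · exact absurd h1 h3
    · exact h1
  refine sq_add_one hq isPrimePow_card fun v hv hd => ?_
  by_contra hne
  push Not at hne
  exact h.not_adj v (H377.psp_adj_plus (m := 2) (by norm_num) Nat.prime_five hv (by norm_num) hne.1 (Ne.symm hne.2) h4 hd)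

end PSp

section Orth

variable {F : Type*} [Field F] [Finite F] {m : ℕ}

theorem omega_odd (ho : Odd (Nat.card F)) (hm : 3 ≤ m) (h : Iso5 (POmega F (quadFormOdd m F))) : False := by
  by_cases h5q : 5 ∣ Nat.card F
  · exact h.not_adj 2 (H377.OOdd.adj_two_of_char ho hm Nat.prime_five (by norm_num) h5q)
  · exact h.not_adj 2 (H377.OOdd.adj_two_of_dvd ho hm (i := 2) (by norm_num) (by omega) Nat.prime_five (by norm_num)
      (dvd_four h5q))

end Orth

theorem omega_even {F : Type*} [Field F] [Finite F] {ι : Type} [Fintype ι] [DecidableEq ι]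
    {Q : QuadraticForm F (ι → F)} {m : ℕ} {ε : ℤ} (hQ : H182.Sign.Sg Q m ε) (hm : 4 ≤ m)
    (h : Iso5 (POmega F ⇑Q)) : False := by
  by_cases h5q : 5 ∣ Nat.card F
  · have h1 : ((5 : ℕ) : F) = 0 := by
      have hc : ((Nat.card F : ℕ) : F) = 0 := by
        let _ := Fintype.ofFinite F
        rw [Nat.card_eq_fintype_card]
        exact FiniteField.cast_card_eq_zero F
      obtain ⟨p, n, hp, hn, hpn⟩ := isPrimePow_card (F := F)
      have hp := hp.nat_prime
      have h2 : 5 = p := by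
        rw [← hpn] at h5q
        exact (Nat.prime_dvd_prime_iff_eq Nat.prime_five hp).1 (Nat.prime_five.dvd_of_dvd_pow h5q)
      rw [← hpn, ← h2, Nat.cast_pow] at hc
      exact (pow_eq_zero_iff hn.ne').1 hc
    exact h.not_adj 2 (H182.Cent.adj_two_of_char hQ hm Nat.prime_five (by norm_num) h1)
  · exact h.not_adj 2 (H182.Cent.adj_two_of_dvd hQ hm (i := 2) (by norm_num) (by omega) Nat.prime_five (by norm_num)
      (dvd_four h5q))

theorem pOmegaPlus {S : Type*} [Group S] (hS : IsPOmegaPlus S) (h : Iso5 S) : False := by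
  obtain ⟨F, _, _, m, hm, ⟨e⟩⟩ := hS
  have h1 := h.congr e
  refine omega_even (H182.Sign.sg_plusForm (F := F) m) hm ?_
  rwa [LieClassical.OrthForms.coe_plusForm]

theorem pOmegaMinus {S : Type*} [Group S] (hS : IsPOmegaMinus S) (h : Iso5 S) : False := by
  obtain ⟨F, _, _, m, a, b, hm, hab, ⟨e⟩⟩ := hS
  have h1 := h.congr e
  have hs := H182.Sign.sg_minusForm (F := F) (m - 1) hab
  rw [Nat.sub_add_cancel (by omega)] at hs
  refine omega_even hs hm ?_
  rwa [LieClassical.OrthForms.coe_minusForm]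

theorem pOmegaOdd {S : Type*} [Group S] (hS : IsPOmegaOdd S) (h : Iso5 S) : False := by
  obtain ⟨F, _, _, m, hm, ho, ⟨e⟩⟩ := hS
  rw [← Nat.card_eq_fintype_card] at ho
  exact omega_odd ho hm (h.congr e)

section PSU

open Cfsg.Agent.H948.UMain Cfsg.Agent.H948.UProd

variable {F : Type*} [Field F] [Fintype F] {n q : ℕ}

theorem psu (hF : Fintype.card F = q ^ 2) (hn : 3 ≤ n) (h32 : ¬ (n = 3 ∧ q = 2)) (h5 : 5 ∣ Nat.card (PSU n F q))
    (h : Iso5 (PSU n F q)) : n = 4 ∧ (q = 2 ∨ q = 3) := by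
  have hq2 : 2 ≤ q := LieClassical.HermBasic.two_le hF
  have hqpp : IsPrimePow q := by
    have h1 : IsPrimePow (q ^ 2) := by rw [← hF]; exact FiniteField.isPrimePow_card F
    exact (isPrimePow_pow_iff (by norm_num)).1 h1
  have h5q : ¬ 5 ∣ q := fun h3 => h.not_adj 2 (adj_two_of_char hF hn Nat.prime_five (by norm_num) h3)
  have hres := dvd_cases h5q
  have hlt : ∀ i, 4 ≤ n → i < n - 2 → ¬ 5 ∣ ph q i := fun i hn4 hi hd =>
    h.not_adj 2 (adj_two_of_lt hF hn4 Nat.prime_five (by norm_num) hi hd)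
  have hph3 : 5 ∣ ph q 3 := by rw [ph_odd (by decide)]; exact dvd_four h5q
  have hnear : ¬ H564.NearTwo.Near (PSU n F q) 5 := by
    rintro (h1 | h1 | ⟨s, h1, -⟩)
    · omega
    · exact h.not_adj 2 h1
    · exact h.not_adj s h1
  have hn6 : n < 6 := by
    by_contra hlt'
    exact hlt 3 (by omega) (by omega) hph3
  have hsq : q % 5 = 2 ∨ q % 5 = 3 → q ^ 2 % 5 = 4 := by
    rintro (h1 | h1) <;> rw [Nat.pow_mod, h1]
  have hone : 1 ≤ q ^ 2 := Nat.one_le_pow _ _ (by omega)
  have h23 : 4 ≤ n → q % 5 = 2 ∨ q % 5 = 3 := by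
    intro hn4
    have h1 := hlt 1 hn4 (by omega)
    rw [ph_odd (by decide)] at h1
    rcases hres with h2 | h2 | h2
    · exfalso
      apply h1
      have h3 : q ^ (1 + 1) % 5 = 1 := by rw [Nat.pow_mod, h2]
      have : 1 ≤ q ^ (1 + 1) := Nat.one_le_pow _ _ (by omega)
      omega
    · exfalso
      apply h1
      have h3 : q ^ (1 + 1) % 5 = 1 := by rw [Nat.pow_mod, h2]
      have : 1 ≤ q ^ (1 + 1) := Nat.one_le_pow _ _ (by omega)
      omega
    · exact h2
  rcases near_or hF hn h32 Nat.prime_five (by norm_num) h5 with h1 | h1 | ⟨hn4, h1, hd⟩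
  · exact absurd h1 hnear
  · -- the big torus
    obtain ⟨h1, h2⟩ := h1
    have hnn : n = 3 ∨ n = 4 ∨ n = 5 := by omega
    rcases hnn with rfl | rfl | rfl
    · exfalso
      rw [ph_even (by decide)] at h1
      have h3 : q ^ 3 % 5 = 4 := by
        have : q ^ (3 - 1 + 1) = q ^ 3 := rfl
        rw [this] at h1
        omega
      rw [Nat.pow_mod] at h3
      rcases hres with h4 | h4 | h4 | h4 <;> rw [h4] at h3 <;> omega
    · refine ⟨rfl, ?_⟩
      have h3 := h23 le_rfl
      have hpr : ∀ v, v.Prime → v ∣ q ^ 4 - 1 → ¬ v ∣ q + 1 → v = 5 := by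
        intro v hv hd1 hd2
        by_contra hne
        refine h.not_adj v (adj_far2 hF hn Nat.prime_five hv (Ne.symm hne) ⟨h1, h2⟩ ⟨?_, hd2⟩)
        rw [ph_odd (by decide)]
        exact hd1
      have h4 : q ^ 4 - 1 = (q + 1) * ((q - 1) * (q ^ 2 + 1)) := by
        obtain ⟨r, hr⟩ : ∃ r, q = r + 1 := ⟨q - 1, by omega⟩
        rw [hr, Nat.add_sub_cancel]
        have : (r + 1) ^ 4 = (r + 1 + 1) * (r * ((r + 1) ^ 2 + 1)) + 1 := by ring
        omega
      have h6 : ∀ v, v.Prime → v ∣ q - 1 → v = 2 := by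
        intro v hv hd1
        by_contra hv2
        have hd2 : ¬ v ∣ q + 1 := by
          intro h7
          have h8 : v ∣ q + 1 - (q - 1) := Nat.dvd_sub h7 hd1
          have h9 : q + 1 - (q - 1) = 2 := by omega
          rw [h9] at h8
          exact hv2 ((Nat.prime_dvd_prime_iff_eq hv Nat.prime_two).1 h8)
        have h7 := hpr v hv (by rw [h4]; exact Dvd.dvd.mul_left (hd1.mul_right _) _) hd2
        subst h7
        omega
      have h7 : ∀ v, v.Prime → v ∣ q ^ 2 + 1 → v = 2 ∨ v = 5 := by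
        intro v hv hd1
        by_cases hv2 : v = 2
        · exact Or.inl hv2
        right
        refine hpr v hv (by rw [h4]; exact Dvd.dvd.mul_left (hd1.mul_left _) _) ?_
        intro h8
        have h9 : q ^ 2 - 1 = (q + 1) * (q - 1) := sq_sub_one q (by omega)
        have h10 : v ∣ q ^ 2 - 1 := by rw [h9]; exact h8.mul_right _
        have h11 : v ∣ q ^ 2 + 1 - (q ^ 2 - 1) := Nat.dvd_sub hd1 h10
        have h12 : q ^ 2 + 1 - (q ^ 2 - 1) = 2 := by omega
        rw [h12] at h11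
        exact hv2 ((Nat.prime_dvd_prime_iff_eq hv Nat.prime_two).1 h11)
      rcases sq_add_one hq2 hqpp h7 with h8 | h8 | h8
      · exact Or.inl h8
      · exact Or.inr h8
      · exfalso
        subst h8
        have := h6 3 Nat.prime_three (by norm_num)
        omega
    · exfalso
      rw [ph_even (by decide)] at h1
      have h3 : q ^ 5 % 5 = 4 := by
        have : q ^ (5 - 1 + 1) = q ^ 5 := rfl
        rw [this] at h1
        omega
      rw [Nat.pow_mod] at h3
      rcases h23 (by norm_num) with h4 | h4 <;> rw [h4] at h3 <;> omega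
  · exfalso
    obtain ⟨h1, h2⟩ := h1
    have h3 := h23 hn4
    have hnn : n = 4 ∨ n = 5 := by omega
    rcases hnn with rfl | rfl
    · rw [ph_even (by decide)] at h1
      have h6 : q ^ 3 % 5 = 4 := by
        have : q ^ (4 - 2 + 1) = q ^ 3 := rfl
        rw [this] at h1
        omega
      rw [Nat.pow_mod] at h6
      rcases h3 with h4 | h4 <;> rw [h4] at h6 <;> omega
    · have h4 : q + 1 ≤ 5 := Nat.le_of_dvd (by norm_num) hd
      have h6 : q = 2 ∨ q = 3 ∨ q = 4 := by omega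
      rcases h6 with rfl | rfl | rfl <;> revert hd h2 <;> norm_num

end PSU

end Cfsg.Agent.H534.Five
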